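import Cfsg.Agent.H347.HX.G23.Main

/-!
# S2464, row `G₂(3)`: every element `≠ 1` is a product of two conjugates of an element of order 7 (helper332)

The 22 classes of helper347's list by explicit words.
-/

set_option autoImplicit false
set_option maxRecDepth 100000
set_option Elab.async false

namespace Cfsg.Agent.H332.TC.G23

open Subgroup Cfsg.Agent.H347.HX Cfsg.Agent.H347.HX.G23

/-- the word of `x` -/
abbrev wx : List ℕ := [1, 3, 2, 5]

/-- `g = u x u⁻¹ v x v⁻¹` with words `u`, `v` -/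
def T (w u v : List ℕ) : Bool := chk w (u ++ (wx ++ (u.reverse ++ (v ++ (wx ++ v.reverse)))))

theorem of_T {w u v : List ℕ} (h : T w u v = true) :
    ∃ u v : A, ev s w = (u * ev s wx * u⁻¹) * (v * ev s wx * v⁻¹) := by
  refine ⟨ev s u, ev s v, ?_⟩
  have h1 := key h
  rw [ev_append, ev_append, ev_append, ev_append, ev_append] at h1
  rw [revw, revw, h1]
  simp only [mul_assoc]

theorem t1 : T (wr [4, 1]) [5] [2, 1, 4, 5, 2, 1, 5, 3, 4] = true := by decide +kernel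
theorem t2 : T (wr [2]) [4, 3, 1] [1, 5, 1, 3, 1, 2, 1, 5, 3] = true := by decide +kernel
theorem t3 : T (wr [5, 3, 5, 3, 4]) [4, 0] [3, 2, 5, 3, 5, 3, 5, 4] = true := by decide +kernel
theorem t4 : T (wr [5, 1, 5, 2]) [2, 0, 5] [1, 3, 1, 0, 5, 1, 0] = true := by decide +kernel
theorem t5 : T (wr [5, 1, 5]) [5, 0] [2, 3, 0, 5, 1] = true := by decide +kernel
theorem t6 : T (wr [1, 2, 5, 3, 5, 2, 1]) [1, 2] [2, 1, 2, 5, 3, 5, 4, 0] = true := by decide +kernel
theorem t7 : T (wr [1, 0]) [1] [1, 5] = true := by decide +kernel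
theorem t8 : T (wr [4, 0]) [0] [5, 4, 2] = true := by decide +kernel
theorem t9 : T (wr [0]) [4, 1] [3, 5, 2, 3, 5, 1, 4] = true := by decide +kernel
theorem t10 : T (wr [1, 5, 4, 1]) [0, 1, 0] [1, 2, 5, 1, 4] = true := by decide +kernel
theorem t11 : T (wr [5, 2, 1, 5, 0]) [4] [0, 3, 5, 3, 2, 5, 3, 1, 2] = true := by decide +kernel
theorem t12 : T (wr [5, 2]) [0, 1] [5, 2, 3, 1, 2] = true := by decide +kernel
theorem t13 : T (wr [1, 5, 1]) [0, 1] [5, 3, 0, 1, 5, 1] = true := by decide +kernel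
theorem t14 : T (wr [4, 5, 1]) [2] [4, 5, 1, 0, 5] = true := by decide +kernel
theorem t15 : T (wr [5, 3, 4]) [4, 2, 1, 0] [2, 5, 0, 1, 5, 3] = true := by decide +kernel
theorem t16 : T (wr [5, 3, 4, 0]) [0, 3, 5, 4] [4, 2, 1] = true := by decide +kernel
theorem t17 : T (wr [5, 3, 4, 1]) [1, 5] [4, 1, 5, 4, 3, 2, 1] = true := by decide +kernel
theorem t18 : T (wr [5]) [0, 5, 4, 1] [1, 2, 0, 5, 3, 0] = true := by decide +kernel
theorem t19 : T (wr [5, 4, 1]) [] [2, 3, 5, 1, 3, 1, 4, 5, 2] = true := by decide +kernel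
theorem t20 : T (wr [5, 3, 5, 4]) [2, 0] [2, 5, 3, 2, 5, 3, 5, 4] = true := by decide +kernel
theorem t21 : T (wr [5, 1]) [0, 1] [2, 1, 3, 2, 5, 3, 1, 0] = true := by decide +kernel
theorem t22 : T (wr [5, 4]) [] [4, 3, 5, 4, 1, 5] = true := by decide +kernel

theorem wv_T : ∀ w ∈ wv, ev s (wr w) ≠ 1 → ∃ u v : A, ev s (wr w) = (u * ev s wx * u⁻¹) * (v * ev s wx * v⁻¹) := by
  intro w hw h1
  simp only [wv, List.mem_cons, List.not_mem_nil, or_false] at hw
  rcases hw with rfl | rfl | rfl | rfl | rfl | rfl | rfl | rfl | rfl | rfl | rfl | rfl | rfl | rfl | rfl | rfl | rfl | rfl | rfl | rfl | rfl | rfl | rfl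
  · exact absurd (key (u := wr []) (v := []) (by decide +kernel)) h1
  exacts [of_T t1, of_T t2, of_T t3, of_T t4, of_T t5, of_T t6, of_T t7, of_T t8, of_T t9, of_T t10, of_T t11, of_T t12, of_T t13, of_T t14, of_T t15, of_T t16, of_T t17, of_T t18, of_T t19, of_T t20, of_T t21, of_T t22]

theorem all_A : ∃ x : A, orderOf x = 7 ∧ ∀ g : A, g ≠ 1 → ∃ u v : A, g = (u * x * u⁻¹) * (v * x * v⁻¹) := by
  refine ⟨ev s wx, ?_, ?_⟩
  · have := Fact.mk (show Nat.Prime 7 by norm_num)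
    refine orderOf_eq_prime ?_ fun h => ?_
    · rw [pow_succ, pow_succ, pow_succ, pow_succ, pow_succ, pow_succ, pow_one]
      simp only [mulw]
      exact key (v := []) (by decide +kernel)
    · exact ne_of (u := wx) (v := []) 0 (by decide +kernel) h
  intro g hg1
  obtain ⟨w, hw, hc⟩ := classes g
  obtain ⟨c, rfl⟩ := isConj_iff.1 hc
  obtain ⟨u, v, h⟩ := wv_T w hw fun h => hg1 (by rw [h, mul_one, mul_inv_cancel])
  refine ⟨c * u, c * v, ?_⟩
  rw [h]
  group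

/-- **S2464, row `G₂(3)`** (the body of `Six`) -/
theorem six_g2_three {F : Type*} [Field F] [Fintype F] (hF : Fintype.card F = 3) :
    ∃ x y : ↥(Lie.chevG2.group F), Nat.Coprime (orderOf x) 6 ∧ Nat.Coprime (orderOf y) 6 ∧
      ∀ g : ↥(Lie.chevG2.group F), g ≠ 1 → ∃ u v : ↥(Lie.chevG2.group F), g = (u * x * u⁻¹) * (v * y * v⁻¹) := by
  classical
  have σ : ZMod 3 ≃+* F := ZMod.ringEquivOfPrime F Nat.prime_three hF
  obtain ⟨e⟩ := iso.2.2
  obtain ⟨x, hx, h⟩ := all_A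
  obtain ⟨φ⟩ : Nonempty (A ≃* ↥(Lie.chevG2.group F)) := ⟨e.trans (ChevalleyStructure.FieldIso.groupEquiv Lie.chevG2 σ)⟩
  have ho : Nat.Coprime (orderOf (φ x)) 6 := by
    rw [MulEquiv.orderOf_eq, hx]
    norm_num
  refine ⟨φ x, φ x, ho, ho, fun g hg => ?_⟩
  obtain ⟨u, v, h1⟩ := h (φ.symm g) fun h2 => hg (by rw [← φ.apply_symm_apply g, h2, map_one])
  refine ⟨φ u, φ v, ?_⟩
  rw [← φ.apply_symm_apply g, h1]
  simp only [map_mul, map_inv]

end Cfsg.Agent.H332.TC.G23
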